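import Mathlib
import Cfsg.Prelude.Def_SylowChains
import Cfsg.Prelude.Def_Local
import Cfsg.Prelude.Def_Transfer
import Cfsg.Agent.Lib.Helper33.Alperin

/-!
# S3072 (strong Alperin–Goldschmidt fusion): interface

`Good p P H` : the five conditions of S3072 on a subgroup `H i` (inside `P`, fully normalised,
`C_P(H) ≤ H`, `O_{p',p}(N(H)) = H C(H)`, `N(H)/H` not Sylow-chain-connected).
`MinX p H X` : `X/H` is the least normal subgroup of `N(H)/H` of order divisible by `p`.
`Link p P H X x` : `Good`, `MinX` and `x ∈ O^p(X)`.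
`GChain p P A l` : list form of the chain condition; `gprod l` the product of the elements.
`RR p P A g` : `g = c * gprod l * y`, `c ∈ C(A)`, `y ∈ N(P)`, `GChain p P A l`.
-/

set_option autoImplicit false

namespace Cfsg.Agent.Lib.Helper22.AG

open Cfsg Cfsg.Agent.Lib.Helper33

universe u

section defs

variable {G : Type u} [Group G]

/-- The five conditions of S3072 on `H i`. -/
def Good (p : ℕ) (P H : Subgroup G) : Prop :=
  H ≤ P ∧
  ¬ p ∣ (P ⊓ Subgroup.normalizer (H : Set G)).relIndex (Subgroup.normalizer (H : Set G)) ∧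
  P ⊓ Subgroup.centralizer (H : Set G) ≤ H ∧
  (Cfsg.pPrimePCore p ↥(Subgroup.normalizer (H : Set G))).map (Subgroup.normalizer (H : Set G)).subtype =
    H ⊔ Subgroup.centralizer (H : Set G) ∧
  ¬ Cfsg.IsSylowChainConnected p
      (↥(Subgroup.normalizer (H : Set G)) ⧸ H.subgroupOf (Subgroup.normalizer (H : Set G)))

/-- `X/H` is the least normal subgroup of `N(H)/H` of order divisible by `p`. -/
def MinX (p : ℕ) (H X : Subgroup G) : Prop :=
  H ≤ X ∧ X ≤ Subgroup.normalizer (H : Set G) ∧
    (X.subgroupOf (Subgroup.normalizer (H : Set G))).Normal ∧ p ∣ H.relIndex X ∧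
    ∀ Y : Subgroup G, H ≤ Y → Y ≤ Subgroup.normalizer (H : Set G) →
      (Y.subgroupOf (Subgroup.normalizer (H : Set G))).Normal → p ∣ H.relIndex Y → X ≤ Y

/-- One link of the chain. -/
def Link (p : ℕ) (P H X : Subgroup G) (x : G) : Prop :=
  Good p P H ∧ MinX p H X ∧ x ∈ (Cfsg.pResidual p ↥X).map X.subtype

/-- List form of the chain: entries `(H, X, x)`. -/
def GChain (p : ℕ) (P : Subgroup G) : Set G → List (Subgroup G × Subgroup G × G) → Prop
  | _, [] => True
  | A, t :: l => Link p P t.1 t.2.1 t.2.2 ∧ A ⊆ (t.1 : Set G) ∧ GChain p P (rconj t.2.2 A) l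

/-- The product of the conjugating elements. -/
def gprod (l : List (Subgroup G × Subgroup G × G)) : G := (l.map (fun t => t.2.2)).prod

/-- The reversed chain (inverse elements, same subgroups). -/
def gRev (l : List (Subgroup G × Subgroup G × G)) : List (Subgroup G × Subgroup G × G) :=
  (l.map (fun t => (t.1, t.2.1, t.2.2⁻¹))).reverse

/-- The chain conjugated by `y`: `(H, X, x) ↦ (y H y⁻¹, y X y⁻¹, y x y⁻¹)`. -/
def gConj (y : G) (l : List (Subgroup G × Subgroup G × G)) : List (Subgroup G × Subgroup G × G) :=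
  l.map (fun t => (cj y t.1, cj y t.2.1, y * t.2.2 * y⁻¹))

/-- The relation fed to Alperin's induction. -/
def RR (p : ℕ) (P A : Subgroup G) (g : G) : Prop :=
  ∃ (l : List (Subgroup G × Subgroup G × G)) (c y : G),
    c ∈ Subgroup.centralizer (A : Set G) ∧ y ∈ Subgroup.normalizer (P : Set G) ∧
    g = c * gprod l * y ∧ GChain p P (A : Set G) l

theorem gChain_nil (p : ℕ) (P : Subgroup G) (A : Set G) : GChain p P A [] := trivial

theorem gChain_cons (p : ℕ) (P : Subgroup G) (A : Set G) (t : Subgroup G × Subgroup G × G)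
    (l : List (Subgroup G × Subgroup G × G)) :
    GChain p P A (t :: l) ↔ Link p P t.1 t.2.1 t.2.2 ∧ A ⊆ (t.1 : Set G) ∧
      GChain p P (rconj t.2.2 A) l := Iff.rfl

theorem gprod_nil : gprod ([] : List (Subgroup G × Subgroup G × G)) = 1 := rfl

theorem gprod_cons (t : Subgroup G × Subgroup G × G) (l : List (Subgroup G × Subgroup G × G)) :
    gprod (t :: l) = t.2.2 * gprod l := by
  simp [gprod]

theorem gprod_append (l₁ l₂ : List (Subgroup G × Subgroup G × G)) :
    gprod (l₁ ++ l₂) = gprod l₁ * gprod l₂ := by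
  simp [gprod]

theorem gChain_append (p : ℕ) (P : Subgroup G) (l₁ l₂ : List (Subgroup G × Subgroup G × G)) :
    ∀ A : Set G, GChain p P A (l₁ ++ l₂) ↔ GChain p P A l₁ ∧ GChain p P (rconj (gprod l₁) A) l₂ := by
  induction l₁ with
  | nil =>
    intro A
    rw [List.nil_append, gprod_nil, rconj_one]
    exact ⟨fun h => ⟨gChain_nil _ _ _, h⟩, fun h => h.2⟩
  | cons t l ih =>
    intro A
    rw [List.cons_append, gChain_cons, gChain_cons, ih, gprod_cons, rconj_mul]
    tauto

theorem gChain_mono (p : ℕ) (P : Subgroup G) (l : List (Subgroup G × Subgroup G × G)) :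
    ∀ A B : Set G, B ⊆ A → GChain p P A l → GChain p P B l := by
  induction l with
  | nil => intro A B _ _; exact gChain_nil _ _ _
  | cons t l ih =>
    intro A B hBA h
    rw [gChain_cons] at h ⊢
    exact ⟨h.1, hBA.trans h.2.1, ih _ _ (rconj_mono hBA) h.2.2⟩

end defs

/-! ### Packages: list algebra -/

/-- [FIN] from the list form to the `Fin`-indexed form of the statement. -/
def PkgFin : Prop := ∀ {G : Type u} [Group G] (p : ℕ) (P : Subgroup G) (A : Set G)
    (l : List (Subgroup G × Subgroup G × G)), GChain p P A l →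
    ∃ (n : ℕ) (H X : Fin n → Subgroup G) (x : Fin n → G),
      (List.ofFn x).prod = gprod l ∧
      ∀ i : Fin n, Link p P (H i) (X i) (x i) ∧
        (fun a => (((List.ofFn x).take i.val).prod)⁻¹ * a * ((List.ofFn x).take i.val).prod) '' A ⊆
          (H i : Set G)

/-- [REV] the reversed chain. -/
def PkgRev : Prop := ∀ {G : Type u} [Group G] (p : ℕ) (P : Subgroup G)
    (l : List (Subgroup G × Subgroup G × G)) (A : Set G), GChain p P A l →
    GChain p P (rconj (gprod l) A) (gRev l) ∧ gprod (gRev l) = (gprod l)⁻¹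

/-- [CONJ] a link conjugated by an element of `N(P)` is a link. -/
def PkgConj : Prop := ∀ {G : Type u} [Group G] [Finite G] {p : ℕ} [Fact p.Prime]
    (P H X : Subgroup G) (x y : G), y ∈ Subgroup.normalizer (P : Set G) →
    Link p P H X x → Link p P (cj y H) (cj y X) (y * x * y⁻¹)

/-- [CONJL] a chain conjugated by an element of `N(P)`. -/
def PkgConjL : Prop := ∀ {G : Type u} [Group G] [Finite G] {p : ℕ} [Fact p.Prime]
    (P : Subgroup G) (y : G) (l : List (Subgroup G × Subgroup G × G)) (B : Set G),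
    y ∈ Subgroup.normalizer (P : Set G) → GChain p P (rconj y B) l →
    GChain p P B (gConj y l) ∧ gprod (gConj y l) = y * gprod l * y⁻¹

/-- [COMP] `RR` is closed under composition. -/
def PkgComp : Prop := ∀ {G : Type u} [Group G] [Finite G] {p : ℕ} [Fact p.Prime]
    (P A : Subgroup G) (g h : G), RR p P A g → RR p P (cj g⁻¹ A) h → RR p P A (g * h)

/-- [INV] `RR` is closed under inversion. -/
def PkgInv : Prop := ∀ {G : Type u} [Group G] [Finite G] {p : ℕ} [Fact p.Prime]
    (P A : Subgroup G) (g : G), RR p P A g → RR p P (cj g⁻¹ A) g⁻¹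

/-! ### Packages: transport under conjugation -/

/-- [CCISO] chain-connectedness is invariant under isomorphism. -/
def PkgCCIso : Prop := ∀ {K K' : Type u} [Group K] [Group K'] [Finite K] [Finite K']
    (p : ℕ) [Fact p.Prime] (_e : K ≃* K'),
    Cfsg.IsSylowChainConnected p K → Cfsg.IsSylowChainConnected p K'

/-- [CJG] `Good` is invariant under conjugation by `N(P)`. -/
def PkgConjGood : Prop := ∀ {G : Type u} [Group G] [Finite G] {p : ℕ} [Fact p.Prime]
    (P H : Subgroup G) (y : G), y ∈ Subgroup.normalizer (P : Set G) →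
    Good p P H → Good p P (cj y H)

/-- [CJX] `MinX` and membership in `O^p(X)` are invariant under conjugation. -/
def PkgConjX : Prop := ∀ {G : Type u} [Group G] [Finite G] {p : ℕ} [Fact p.Prime]
    (H X : Subgroup G) (x y : G), MinX p H X → x ∈ (Cfsg.pResidual p ↥X).map X.subtype →
    MinX p (cj y H) (cj y X) ∧ y * x * y⁻¹ ∈ (Cfsg.pResidual p ↥(cj y X)).map (cj y X).subtype

/-! ### Packages: the local group theory.  Throughout `N = N_G(U)`, `U ≤ P`, `P` a `p`-group,
`N_P(U)` Sylow in `N`, and `M` a subgroup containing `C_G(U)` and `N ∩ N_G(D)` for all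
`U < D ≤ P`. -/

/-- [GT1] `C_P(U) ≰ U`: Frattini for `C_G(U) ⊴ N`. -/
def PkgGT1 : Prop := ∀ {G : Type u} [Group G] [Finite G] {p : ℕ} [Fact p.Prime] (P U M : Subgroup G),
    IsPGroup p P → U ≤ P →
    SylIn p (P ⊓ Subgroup.normalizer (U : Set G)) (Subgroup.normalizer (U : Set G)) →
    ¬ (P ⊓ Subgroup.centralizer (U : Set G) ≤ U) →
    Subgroup.centralizer (U : Set G) ≤ M →
    (∀ D : Subgroup G, U < D → D ≤ P →
      Subgroup.normalizer (U : Set G) ⊓ Subgroup.normalizer (D : Set G) ≤ M) →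
    Subgroup.normalizer (U : Set G) ≤ M

/-- [GT2] `P ∩ O_{p',p}(N) ≠ U`: Frattini for `O_{p',p}(N)`, and `O_{p'}(N) ≤ C_G(U)`. -/
def PkgGT2 : Prop := ∀ {G : Type u} [Group G] [Finite G] {p : ℕ} [Fact p.Prime] (P U M : Subgroup G),
    IsPGroup p P → U ≤ P →
    SylIn p (P ⊓ Subgroup.normalizer (U : Set G)) (Subgroup.normalizer (U : Set G)) →
    P ⊓ (Cfsg.pPrimePCore p ↥(Subgroup.normalizer (U : Set G))).map
      (Subgroup.normalizer (U : Set G)).subtype ≠ U →
    Subgroup.centralizer (U : Set G) ≤ M →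
    (∀ D : Subgroup G, U < D → D ≤ P →
      Subgroup.normalizer (U : Set G) ⊓ Subgroup.normalizer (D : Set G) ≤ M) →
    Subgroup.normalizer (U : Set G) ≤ M

/-- [GT3] `C_P(U) ≤ U` and `P ∩ O_{p',p}(N) = U` give `O_{p',p}(N) = U C_G(U)`. -/
def PkgGT3 : Prop := ∀ {G : Type u} [Group G] [Finite G] {p : ℕ} [Fact p.Prime] (P U : Subgroup G),
    IsPGroup p P → U ≤ P →
    SylIn p (P ⊓ Subgroup.normalizer (U : Set G)) (Subgroup.normalizer (U : Set G)) →
    P ⊓ Subgroup.centralizer (U : Set G) ≤ U →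
    P ⊓ (Cfsg.pPrimePCore p ↥(Subgroup.normalizer (U : Set G))).map
      (Subgroup.normalizer (U : Set G)).subtype = U →
    (Cfsg.pPrimePCore p ↥(Subgroup.normalizer (U : Set G))).map
      (Subgroup.normalizer (U : Set G)).subtype = U ⊔ Subgroup.centralizer (U : Set G)

/-- [SPE] abstract: `V ⊴ K`, `V < S` Sylow, `M ≥ N_K(D)` for all `V < D ≤ S`, and `K/V`
chain-connected: then `M = K` (otherwise `M/V` is strongly `p`-embedded in `K/V`). -/
def PkgSPE : Prop := ∀ {K : Type u} [Group K] [Finite K] {p : ℕ} [Fact p.Prime]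
    (V : Subgroup K) [V.Normal] (S : Sylow p K) (M : Subgroup K),
    V < (S : Subgroup K) →
    (∀ D : Subgroup K, V < D → D ≤ (S : Subgroup K) → Subgroup.normalizer (D : Set K) ≤ M) →
    Cfsg.IsSylowChainConnected p (K ⧸ V) → M = ⊤

/-- [GT4] `N/U` chain-connected. -/
def PkgGT4 : Prop := ∀ {G : Type u} [Group G] [Finite G] {p : ℕ} [Fact p.Prime] (P U M : Subgroup G),
    IsPGroup p P → U < P →
    SylIn p (P ⊓ Subgroup.normalizer (U : Set G)) (Subgroup.normalizer (U : Set G)) →
    Cfsg.IsSylowChainConnected p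
      (↥(Subgroup.normalizer (U : Set G)) ⧸ U.subgroupOf (Subgroup.normalizer (U : Set G))) →
    (∀ D : Subgroup G, U < D → D ≤ P →
      Subgroup.normalizer (U : Set G) ⊓ Subgroup.normalizer (D : Set G) ≤ M) →
    Subgroup.normalizer (U : Set G) ≤ M

/-- [MINX] existence of the least normal subgroup of order divisible by `p` (S3058). -/
def PkgMinX : Prop := ∀ {G : Type u} [Group G] [Finite G] {p : ℕ} [Fact p.Prime] (P U : Subgroup G),
    IsPGroup p P → U < P →
    ¬ Cfsg.IsSylowChainConnected p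
      (↥(Subgroup.normalizer (U : Set G)) ⧸ U.subgroupOf (Subgroup.normalizer (U : Set G))) →
    ∃ X : Subgroup G, MinX p U X

/-- [GT5] Frattini for `X`: `N = O^p(X) · (N ∩ N_G(P ∩ X))`. -/
def PkgGT5 : Prop := ∀ {G : Type u} [Group G] [Finite G] {p : ℕ} [Fact p.Prime] (P U X M : Subgroup G),
    IsPGroup p P → U ≤ P →
    SylIn p (P ⊓ Subgroup.normalizer (U : Set G)) (Subgroup.normalizer (U : Set G)) →
    MinX p U X →
    (∀ D : Subgroup G, U < D → D ≤ P →
      Subgroup.normalizer (U : Set G) ⊓ Subgroup.normalizer (D : Set G) ≤ M) →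
    (Cfsg.pResidual p ↥X).map X.subtype ≤ M →
    Subgroup.normalizer (U : Set G) ≤ M

end Cfsg.Agent.Lib.Helper22.AG
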