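import Mathlib
import Cfsg.Agent.Lib.Helper22.AG.Defs

/-!
# S3072 (strong Alperin–Goldschmidt fusion): assembly from the packages
-/

set_option autoImplicit false

namespace Cfsg.Agent.Lib.Helper22.AG

open Cfsg Cfsg.Agent.Lib.Helper33

universe u

theorem pkgConj (hG : PkgConjGood.{u}) (hX : PkgConjX.{u}) : PkgConj.{u} := by
  intro G _ _ p _ P H X x y hy hL
  obtain ⟨h1, h2, h3⟩ := hL
  obtain ⟨h4, h5⟩ := hX H X x y h2 h3
  exact ⟨hG P H y hy h1, h4, h5⟩

theorem rr_mono {G : Type u} [Group G] (p : ℕ) (P A B : Subgroup G) (g : G) (hBA : B ≤ A)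
    (h : RR p P A g) : RR p P B g := by
  obtain ⟨l, c, y, hc, hy, hg, hl⟩ := h
  have hsub : (B : Set G) ⊆ (A : Set G) := fun x hx => hBA hx
  exact ⟨l, c, y, Subgroup.centralizer_le hsub hc, hy, hg, gChain_mono p P l _ _ hsub hl⟩

/-- The local group theory: the six group-theoretic packages combined. -/
theorem gt (h1 : PkgGT1.{u}) (h2 : PkgGT2.{u}) (h3 : PkgGT3.{u}) (h4 : PkgGT4.{u})
    (hX : PkgMinX.{u}) (h5 : PkgGT5.{u})
    {G : Type u} [Group G] [Finite G] {p : ℕ} [Fact p.Prime] (P U M : Subgroup G)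
    (hPp : IsPGroup p P) (hUP : U < P)
    (hSyl : SylIn p (P ⊓ Subgroup.normalizer (U : Set G)) (Subgroup.normalizer (U : Set G)))
    (hC : Subgroup.centralizer (U : Set G) ≤ M)
    (hD : ∀ D : Subgroup G, U < D → D ≤ P →
      Subgroup.normalizer (U : Set G) ⊓ Subgroup.normalizer (D : Set G) ≤ M)
    (hδ : ∀ X : Subgroup G, Good p P U → MinX p U X →
      (Cfsg.pResidual p ↥X).map X.subtype ≤ M) :
    Subgroup.normalizer (U : Set G) ≤ M := by
  by_cases hc : P ⊓ Subgroup.centralizer (U : Set G) ≤ U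
  · by_cases hk : P ⊓ (Cfsg.pPrimePCore p ↥(Subgroup.normalizer (U : Set G))).map
        (Subgroup.normalizer (U : Set G)).subtype = U
    · have hK := h3 P U hPp hUP.le hSyl hc hk
      by_cases hconn : Cfsg.IsSylowChainConnected p
          (↥(Subgroup.normalizer (U : Set G)) ⧸ U.subgroupOf (Subgroup.normalizer (U : Set G)))
      · exact h4 P U M hPp hUP hSyl hconn hD
      · have hgood : Good p P U := ⟨hUP.le, hSyl.2.2, hc, hK, hconn⟩
        obtain ⟨X, hXm⟩ := hX P U hPp hUP hconn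
        exact h5 P U X M hPp hUP.le hSyl hXm hD (hδ X hgood hXm)
    · exact h2 P U M hPp hUP.le hSyl hk hC hD
  · exact h1 P U M hPp hUP.le hSyl hc hC hD

theorem cj_inv_eq_of_mem_normalizer {G : Type u} [Group G] {U : Subgroup G} {a : G}
    (ha : a ∈ Subgroup.normalizer (U : Set G)) : cj a⁻¹ U = U :=
  mem_normalizer_iff_cj.1 (inv_mem ha)

/-- The local step of Alperin's induction. -/
theorem loc (hComp : PkgComp.{u}) (hInv : PkgInv.{u})
    (h1 : PkgGT1.{u}) (h2 : PkgGT2.{u}) (h3 : PkgGT3.{u}) (h4 : PkgGT4.{u})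
    (hX : PkgMinX.{u}) (h5 : PkgGT5.{u})
    {G : Type u} [Group G] [Finite G] {p : ℕ} [Fact p.Prime] (P U : Subgroup G)
    (hPp : IsPGroup p P) (hUP : U ≤ P)
    (hSyl : SylIn p (P ⊓ Subgroup.normalizer (U : Set G)) (Subgroup.normalizer (U : Set G)))
    (IH : ∀ A' : Subgroup G, A' ≤ P → Nat.card U < Nat.card A' →
      ∀ g, cj g⁻¹ A' ≤ P → RR p P A' g) :
    ∀ m ∈ Subgroup.normalizer (U : Set G), RR p P U m := by
  by_cases hUeq : U = P
  · subst hUeq
    intro m hm
    exact ⟨[], 1, m, one_mem _, hm, by simp [gprod_nil], gChain_nil _ _ _⟩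
  · have hlt : U < P := lt_of_le_of_ne hUP hUeq
    let M : Subgroup G :=
      { carrier := {m | m ∈ Subgroup.normalizer (U : Set G) ∧ RR p P U m}
        one_mem' := ⟨one_mem _, [], 1, 1, one_mem _, one_mem _, by simp [gprod_nil],
          gChain_nil _ _ _⟩
        mul_mem' := by
          intro a b ha hb
          refine ⟨mul_mem ha.1 hb.1, hComp P U a b ha.2 ?_⟩
          rw [cj_inv_eq_of_mem_normalizer ha.1]
          exact hb.2
        inv_mem' := by
          intro a ha
          refine ⟨inv_mem ha.1, ?_⟩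
          have := hInv P U a ha.2
          rwa [cj_inv_eq_of_mem_normalizer ha.1] at this }
    have hmemM : ∀ m, m ∈ M ↔ (m ∈ Subgroup.normalizer (U : Set G) ∧ RR p P U m) :=
      fun m => Iff.rfl
    have key : Subgroup.normalizer (U : Set G) ≤ M := by
      apply gt h1 h2 h3 h4 hX h5 P U M hPp hlt hSyl
      · intro c hc
        rw [hmemM]
        exact ⟨Subgroup.centralizer_le_normalizer (U : Set G) hc, [], c, 1, hc, one_mem _,
          by simp [gprod_nil], gChain_nil _ _ _⟩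
      · intro D hUD hDP n hn
        rw [hmemM]
        refine ⟨hn.1, rr_mono p P D U n hUD.le (IH D hDP (card_lt_of_lt hUD) n ?_)⟩
        rw [cj_inv_eq_of_mem_normalizer hn.2]
        exact hDP
      · intro X hgood hXm x hx
        rw [hmemM]
        have hxX : x ∈ X := Subgroup.map_subtype_le _ hx
        refine ⟨hXm.2.1 hxX, [(U, X, x)], 1, 1, one_mem _, one_mem _, by simp [gprod], ?_⟩
        exact ⟨⟨hgood, hXm, hx⟩, subset_rfl, gChain_nil _ _ _⟩
    intro m hm
    exact ((hmemM m).1 (key hm)).2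

/-- S3072 from the packages. -/
theorem main (hFin : PkgFin.{u}) (hComp : PkgComp.{u}) (hInv : PkgInv.{u})
    (h1 : PkgGT1.{u}) (h2 : PkgGT2.{u}) (h3 : PkgGT3.{u}) (h4 : PkgGT4.{u})
    (hX : PkgMinX.{u}) (h5 : PkgGT5.{u})
    {G : Type u} [Group G] [Finite G] {p : ℕ} [Fact p.Prime]
    (P : Sylow p G) (A : Set G) (hA : A ⊆ (P : Set G))
    (g : G) (hAg : (fun a => g⁻¹ * a * g) '' A ⊆ (P : Set G)) :
    ∃ (n : ℕ) (H X : Fin n → Subgroup G) (x : Fin n → G) (c y : G),
      c ∈ Subgroup.centralizer A ∧ y ∈ Subgroup.normalizer ((P : Subgroup G) : Set G) ∧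
      g = c * (List.ofFn x).prod * y ∧
      ∀ i : Fin n,
        H i ≤ (P : Subgroup G) ∧
        ¬ p ∣ ((P : Subgroup G) ⊓ Subgroup.normalizer (H i : Set G)).relIndex (Subgroup.normalizer (H i : Set G)) ∧
        (P : Subgroup G) ⊓ Subgroup.centralizer (H i : Set G) ≤ H i ∧
        (Cfsg.pPrimePCore p ↥(Subgroup.normalizer (H i : Set G))).map (Subgroup.normalizer (H i : Set G)).subtype =
          H i ⊔ Subgroup.centralizer (H i : Set G) ∧
        ¬ Cfsg.IsSylowChainConnected p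
            (↥(Subgroup.normalizer (H i : Set G)) ⧸ (H i).subgroupOf (Subgroup.normalizer (H i : Set G))) ∧
        (H i ≤ X i ∧ X i ≤ Subgroup.normalizer (H i : Set G) ∧
          ((X i).subgroupOf (Subgroup.normalizer (H i : Set G))).Normal ∧ p ∣ (H i).relIndex (X i) ∧
          ∀ Y : Subgroup G, H i ≤ Y → Y ≤ Subgroup.normalizer (H i : Set G) →
            (Y.subgroupOf (Subgroup.normalizer (H i : Set G))).Normal → p ∣ (H i).relIndex Y → X i ≤ Y) ∧
        x i ∈ (Cfsg.pResidual p ↥(X i)).map (X i).subtype ∧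
        (fun a => (((List.ofFn x).take i.val).prod)⁻¹ * a * ((List.ofFn x).take i.val).prod) '' A ⊆ (H i : Set G) := by
  have hS := sylIn_top P
  have hcl : Subgroup.closure A ≤ (P : Subgroup G) := (Subgroup.closure_le _).2 hA
  have hclg : cj g⁻¹ (Subgroup.closure A) ≤ (P : Subgroup G) := by
    rw [cj_closure, Subgroup.closure_le]
    rintro _ ⟨a, ha, rfl⟩
    apply hAg
    exact ⟨a, ha, by simp⟩
  have hR : RR p (P : Subgroup G) (Subgroup.closure A) g :=
    alperin_induction hS (RR p (P : Subgroup G))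
      (fun A g h => hComp (P : Subgroup G) A g h)
      (fun A B g hBA h => rr_mono p (P : Subgroup G) A B g hBA h)
      (fun A g => hInv (P : Subgroup G) A g)
      (fun U hU hSyl IH => loc hComp hInv h1 h2 h3 h4 hX h5 (P : Subgroup G) U P.2 hU hSyl IH)
      (Subgroup.closure A) hcl g hclg
  obtain ⟨l, c, y, hc, hy, hg, hl⟩ := hR
  obtain ⟨n, H, X, x, hprod, hall⟩ := hFin p (P : Subgroup G) _ l hl
  refine ⟨n, H, X, x, c, y, Subgroup.centralizer_le Subgroup.subset_closure hc, hy, ?_, ?_⟩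
  · rw [hprod]; exact hg
  · intro i
    obtain ⟨⟨⟨a1, a2, a3, a4, a5⟩, hXm, hx⟩, himg⟩ := hall i
    exact ⟨a1, a2, a3, a4, a5, hXm, hx, (Set.image_mono Subgroup.subset_closure).trans himg⟩

end Cfsg.Agent.Lib.Helper22.AG
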